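import Mathlib

/-! Element orders of alternating groups through cycle types. -/

set_option autoImplicit false

namespace Cfsg.Lib.Perm.AltOrders

theorem exists_of_type (n : ℕ) (m : Multiset ℕ) (hsum : m.sum ≤ n) (h2 : ∀ a ∈ m, 2 ≤ a)
    (hev : Even (m.sum + Multiset.card m)) : m.lcm ∈ Set.range (orderOf : alternatingGroup (Fin n) → ℕ) := by
  obtain ⟨σ, hσ⟩ := (Equiv.Perm.exists_with_cycleType_iff (Fin n) (m := m)).2 ⟨by simpa using hsum, h2⟩
  refine ⟨⟨σ, Equiv.Perm.mem_alternatingGroup.2 ?_⟩, ?_⟩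
  · rw [Equiv.Perm.sign_of_cycleType, hσ, hev.neg_one_pow]
  · rw [← Subgroup.orderOf_coe, ← Equiv.Perm.lcm_cycleType, hσ]

theorem type_of_mem {n k : ℕ} (hk : k ∈ Set.range (orderOf : alternatingGroup (Fin n) → ℕ)) :
    ∃ m : Multiset ℕ, m.lcm = k ∧ m.sum ≤ n ∧ (∀ a ∈ m, 2 ≤ a) ∧ Even (m.sum + Multiset.card m) := by
  obtain ⟨σ, rfl⟩ := hk
  refine ⟨(σ : Equiv.Perm (Fin n)).cycleType, ?_, (Equiv.Perm.sum_cycleType_le _).trans (by simp),
    fun a ha => Equiv.Perm.two_le_of_mem_cycleType ha, ?_⟩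
  · rw [Equiv.Perm.lcm_cycleType, Subgroup.orderOf_coe]
  · have hs := Equiv.Perm.mem_alternatingGroup.1 σ.2
    rw [Equiv.Perm.sign_of_cycleType, neg_one_pow_eq_one_iff_even (by decide)] at hs
    exact hs

theorem exists_dvd_of_lcm {p : ℕ} (hp : p.Prime) {m : Multiset ℕ} (h : p ∣ m.lcm) : ∃ a ∈ m, p ∣ a :=
  hp.prime.exists_mem_multiset_dvd (h.trans (Multiset.lcm_dvd.2 fun _ => Multiset.dvd_prod))

theorem even_add_card {m : Multiset ℕ} (h : ∀ a ∈ m, Odd a) : Even (m.sum + Multiset.card m) := by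
  induction m using Multiset.induction with
  | empty => simp
  | cons a m ih =>
    rw [Multiset.sum_cons, Multiset.card_cons, show a + m.sum + (Multiset.card m + 1) = (a + 1) + (m.sum + Multiset.card m) by omega]
    exact (h a (Multiset.mem_cons_self a m)).add_one.add (ih fun x hx => h x (Multiset.mem_cons_of_mem hx))

end Cfsg.Lib.Perm.AltOrders
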